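import Cfsg.Agent.PGV.Quot

/-! `P(G,V)`: the theorem. -/

set_option autoImplicit false

open scoped commutatorElement

open Module

universe u v

namespace Cfsg.Agent.PGV

/-- The hypotheses. -/
structure Hyp {p : ℕ} [Fact p.Prime] {G : Type u} [Group G] {V : Type v} [AddCommGroup V]
    [Module (ZMod p) V] (ρ : Representation (ZMod p) G V) (L A : Subgroup G) : Prop where
  qs : Cfsg.IsQuasisimple L
  comm : ∀ a ∈ A, ∀ c ∈ A, a * c = c * a
  pow : ∀ a ∈ A, a ^ p = 1
  cc : ∀ a ∈ A, (∀ l ∈ L, a * l * a⁻¹ ∈ L) ∨ (∀ l ∈ L, ∀ m ∈ L, Commute l (a * m * a⁻¹))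
  nt : ¬ ∀ l ∈ L, ∀ v, ρ l v = v
  bo : BO ρ A

section

variable {p : ℕ} [hp : Fact p.Prime] {G : Type u} [Group G] [Finite G] {V : Type v} [AddCommGroup V]
  [Module (ZMod p) V] [Finite V] {ρ : Representation (ZMod p) G V} {L A : Subgroup G}

theorem Hyp.isPGroup (h : Hyp ρ L A) : IsPGroup p A := by
  intro t
  exact ⟨1, Subtype.ext (by simpa using h.pow t t.2)⟩

/-- The subgroup of `A` normalizing `L`. -/
def nA (L A : Subgroup G) : Subgroup G := A ⊓ Subgroup.normalizer (L : Set G)

omit [Finite G] in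
theorem mem_normalizer_of_pow {a : G} {n : ℕ} (hn : 0 < n) (ha : a ^ n = 1)
    (h : ∀ l ∈ L, a * l * a⁻¹ ∈ L) : a ∈ Subgroup.normalizer (L : Set G) := by
  rw [Subgroup.mem_normalizer_iff]
  intro l
  refine ⟨fun hl => h l hl, fun hl => ?_⟩
  have h1 : ∀ k : ℕ, ∀ m ∈ L, a ^ k * m * (a ^ k)⁻¹ ∈ L := by
    intro k
    induction k with
    | zero => intro m hm; simpa using hm
    | succ k ih =>
      intro m hm
      have := h _ (ih m hm)
      have e : a * (a ^ k * m * (a ^ k)⁻¹) * a⁻¹ = a ^ (k + 1) * m * (a ^ (k + 1))⁻¹ := by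
        rw [pow_succ']; group
      rwa [e] at this
  have h2 := h1 (n - 1) _ hl
  have h3 : a ^ (n - 1) * a = 1 := by
    rw [← pow_succ, Nat.sub_add_cancel hn, ha]
  have h4 : a ^ (n - 1) * (a * l * a⁻¹) * (a ^ (n - 1))⁻¹ = l := by
    calc a ^ (n - 1) * (a * l * a⁻¹) * (a ^ (n - 1))⁻¹
        = (a ^ (n - 1) * a) * l * (a ^ (n - 1) * a)⁻¹ := by group
      _ = l := by rw [h3]; group
  rwa [h4] at h2

omit [Finite G] [Finite V] in
theorem mem_nA (h : Hyp ρ L A) {a : G} : a ∈ nA L A ↔ a ∈ A ∧ ∀ l ∈ L, a * l * a⁻¹ ∈ L := by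
  rw [nA, Subgroup.mem_inf]
  refine and_congr_right fun ha => ⟨fun h1 l hl => (Subgroup.mem_normalizer_iff.1 h1 l).1 hl,
    fun h1 => mem_normalizer_of_pow hp.out.pos (h.pow a ha) h1⟩

omit [Finite G] [Finite V] in
/-- An element of `A` moving `L` yields `CC`. -/
theorem Hyp.hCC (h : Hyp ρ L A) {a : G} (ha : a ∈ A) (haN : ¬ ∀ l ∈ L, a * l * a⁻¹ ∈ L) :
    CC L a p := by
  intro i hi hip l hl m hm
  rcases h.cc (a ^ i) (A.pow_mem ha i) with h1 | h1
  · exfalso
    apply haN
    have h2 : a ^ i ∈ nA L A := (mem_nA h).2 ⟨A.pow_mem ha i, h1⟩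
    have h3 : a ∈ nA L A :=
      mem_of_pow_mem h2 (h.pow a ha) ((Nat.coprime_comm).1
        ((Nat.Prime.coprime_iff_not_dvd hp.out).2 (fun hd => by
          have := Nat.le_of_dvd hi hd
          omega)))
    exact ((mem_nA h).1 h3).2
  · exact (h1 l hl m hm).eq

/-- Restriction to an invariant subspace `C_V(E)`, `E = C_A(L)`. -/
theorem Hyp.sub (h : Hyp ρ L A) (E : Subgroup G) (hE : E ≤ A) (hEL : ∀ e ∈ E, ∀ l ∈ L, e * l = l * e)
    (hinv : ∀ g, fS ρ E ≤ (fS ρ E).comap (ρ g)) :
    Hyp (Representation.subrepresentation ρ (fS ρ E) hinv) L A where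
  qs := h.qs
  comm := h.comm
  pow := h.pow
  cc := h.cc
  nt := by
    intro htr
    obtain ⟨x, hx, hxc, n, hn, hxn⟩ := exists_noncentral_coprime h.qs p
    apply h.nt
    apply ker_trivial h.qs hx hxc
    have hEp : IsPGroup p E := h.isPGroup.to_le hE
    by_contra hcon
    have h1 : Cm ρ x ≠ ⊥ := by
      intro h2
      apply hcon
      intro v
      have := cm_mem (ρ := ρ) x v
      rw [h2, Submodule.mem_bot] at this
      exact sub_eq_zero.1 this
    obtain ⟨u, hu, hu0, hfix⟩ := exists_fixed (ρ := ρ) hEp (U := Cm ρ x) (by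
      intro e he w hw
      obtain ⟨v, rfl⟩ := mem_Cm.1 hw
      refine mem_Cm.2 ⟨ρ e v, ?_⟩
      rw [map_sub, ← act_mul, ← act_mul, hEL e he x hx]) h1
    apply hu0
    have h3 : ρ x u = u := congrArg Subtype.val (htr x hx ⟨u, hfix⟩)
    obtain ⟨w, rfl⟩ := mem_Cm.1 hu
    rw [coprime_fix_range hxn hn h3, sub_self]
  bo := by
    intro B hB
    have hc : ∀ D : Subgroup G, Nat.card (fS (Representation.subrepresentation ρ (fS ρ E) hinv) D) =
        Nat.card (fS ρ (D ⊔ E)) := by
      intro D
      refine Nat.card_congr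
        { toFun := fun x => ⟨((x : fS ρ E) : V), ?_⟩
          invFun := fun x => ⟨⟨(x : V), fun e he => x.2 e (Subgroup.mem_sup_right he)⟩,
            fun d hd => Subtype.ext (x.2 d (Subgroup.mem_sup_left hd))⟩
          left_inv := fun x => rfl
          right_inv := fun x => rfl }
      rw [← fS_inf]
      exact ⟨fun d hd => congrArg Subtype.val (x.2 d hd), (x : fS ρ E).2⟩
    rw [hc, hc, sup_eq_left.2 hE]
    refine le_trans ?_ (h.bo (B ⊔ E) (sup_le hB hE))
    exact Nat.mul_le_mul_right _ (Nat.card_le_card_of_injective _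
      (Subgroup.inclusion_injective le_sup_left))

/-- Restriction of the group to `L ⊔ A`. -/
theorem Hyp.res (h : Hyp ρ L A) :
    Hyp (p := p) (G := ↥(L ⊔ A)) (MonoidHom.comp ρ (L ⊔ A).subtype)
      (L.subgroupOf (L ⊔ A)) (A.subgroupOf (L ⊔ A)) where
  qs := (Cfsg.Agent.FStar.isQuasisimple_subgroupOf le_sup_left).2 h.qs
  comm := fun a ha c hc => Subtype.ext (h.comm a ha c hc)
  pow := fun a ha => Subtype.ext (by simpa using h.pow a ha)
  cc := by
    intro a ha
    rcases h.cc a ha with h1 | h1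
    · exact Or.inl fun l hl => h1 l hl
    · exact Or.inr fun l hl m hm => Subtype.ext (h1 l hl m hm)
  nt := by
    intro htr
    apply h.nt
    intro l hl v
    exact htr ⟨l, Subgroup.mem_sup_left hl⟩ hl v
  bo := by
    have hc : ∀ D : Subgroup ↥(L ⊔ A),
        Nat.card (fS (p := p) (G := ↥(L ⊔ A)) (MonoidHom.comp ρ (L ⊔ A).subtype) D) =
        Nat.card (fS ρ (D.map (L ⊔ A).subtype)) := by
      intro D
      refine Nat.card_congr
        { toFun := fun x => ⟨(x : V), ?_⟩
          invFun := fun x => ⟨(x : V), fun d hd => x.2 d ⟨d, hd, rfl⟩⟩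
          left_inv := fun x => rfl
          right_inv := fun x => rfl }
      rintro _ ⟨d, hd, rfl⟩
      exact x.2 d hd
    have hc2 : ∀ D : Subgroup ↥(L ⊔ A), Nat.card D = Nat.card (D.map (L ⊔ A).subtype) := by
      intro D
      exact Nat.card_congr (D.equivMapOfInjective _ (L ⊔ A).subtype_injective).toEquiv
    intro B hB
    rw [hc, hc, hc2, hc2 (A.subgroupOf _), Subgroup.map_subgroupOf_eq_of_le le_sup_right]
    refine h.bo _ ?_
    rintro _ ⟨b, hb, rfl⟩
    exact hB hb

end

/-- The induction statement. -/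
def Stmt (p : ℕ) [Fact p.Prime] (n : ℕ) : Prop :=
  ∀ {G : Type u} [Group G] [Finite G] {V : Type v} [AddCommGroup V] [Module (ZMod p) V] [Finite V]
    (ρ : Representation (ZMod p) G V) (L A : Subgroup G), Nat.card V + Nat.card A ≤ n →
    Hyp ρ L A → ∀ a ∈ A, ∀ l ∈ L, a * l * a⁻¹ ∈ L

section

variable {p : ℕ} [hp : Fact p.Prime] {G : Type u} [Group G] [Finite G] {V : Type v} [AddCommGroup V]
  [Module (ZMod p) V] [Finite V]

theorem step_top {n : ℕ} (ih : Stmt.{u, v} p n) (ρ : Representation (ZMod p) G V)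
    (L A : Subgroup G) (hn : Nat.card V + Nat.card A ≤ n + 1) (h : Hyp ρ L A) (htop : L ⊔ A = ⊤) :
    ∀ a ∈ A, ∀ l ∈ L, a * l * a⁻¹ ∈ L := by
  by_contra hcon
  push Not at hcon
  obtain ⟨a0, ha0, l0, hl0, hal0⟩ := hcon
  have haN : ¬ ∀ l ∈ L, a0 * l * a0⁻¹ ∈ L := fun h => hal0 (h l0 hl0)
  set E : Subgroup G := A ⊓ Subgroup.centralizer (L : Set G) with hEdef
  have hEA : E ≤ A := inf_le_left
  have hEL : ∀ e ∈ E, ∀ l ∈ L, e * l = l * e := by
    intro e he l hl
    exact ((Subgroup.mem_centralizer_iff.1 he.2) l hl).symm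
  by_cases hE : ∀ e ∈ E, ∀ v, ρ e v = v
  swap
  · -- pass to `C_V(E)`
    have hinv : ∀ g, fS ρ E ≤ (fS ρ E).comap (ρ g) := by
      have h1 : stabS ρ (fS ρ E) = ⊤ := by
        rw [eq_top_iff, ← htop]
        have key : ∀ g : G, (∀ e ∈ E, g * e = e * g) → g ∈ stabS ρ (fS ρ E) := by
          intro g hg
          refine mem_stabS_of_inv ?_ ?_
          · intro v hv e he
            rw [← act_mul, ← hg e he, act_mul, hv e he]
          · intro v hv e he
            have h3 : Commute g e := hg e he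
            rw [← act_mul, ← h3.inv_left.eq, act_mul, hv e he]
        refine sup_le ?_ ?_
        · intro l hl
          exact key l fun e he => (hEL e he l hl).symm
        · intro a ha
          exact key a fun e he => h.comm a ha e (hEA he)
      intro g v hv
      have h2 : g ∈ stabS ρ (fS ρ E) := by rw [h1]; trivial
      exact (h2 v).1 hv
    have hlt : Nat.card (fS ρ E) < Nat.card V := by
      have hne : fS ρ E ≠ ⊤ := by
        intro h1
        apply hE
        intro e he v
        have : v ∈ fS ρ E := by rw [h1]; trivial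
        exact this e he
      obtain ⟨v, hv⟩ : ∃ v, v ∉ fS ρ E := by
        by_contra hc
        push Not at hc
        exact hne (eq_top_iff.2 fun v _ => hc v)
      haveI : Fintype V := Fintype.ofFinite V
      haveI : Fintype (fS ρ E) := Fintype.ofFinite _
      rw [Nat.card_eq_fintype_card, Nat.card_eq_fintype_card]
      exact Fintype.card_subtype_lt hv
    exact haN (ih _ L A (by omega) (h.sub E hEA hEL hinv) a0 ha0)
  -- the star subgroup
  set T := star ρ A with hTdef
  have hTA : T ≤ A := star_le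
  have hker : ∀ t ∈ A, (∀ l ∈ L, t * l = l * t) → ∀ v, ρ t v = v := by
    intro t ht htc
    exact hE t ⟨ht, Subgroup.mem_centralizer_iff.2 fun l hl => (htc l hl).symm⟩
  have hcca := h.hCC ha0 haN
  have ha0p := h.pow a0 ha0
  by_cases hT : ∀ t ∈ T, ∀ l ∈ L, t * l * t⁻¹ ∈ L
  swap
  · -- `A` is quadratic
    have hTeq : T = A := by
      by_contra hne
      have hlt : Nat.card T < Nat.card A := by
        have hss : T < A := lt_of_le_of_ne hTA hne
        haveI : Fintype A := Fintype.ofFinite _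
        have h1 : (T : Set G) ⊂ (A : Set G) := hss
        have := Set.ncard_lt_ncard h1 (Set.toFinite _)
        exact this
      exact hT (ih ρ L T (by omega)
        { qs := h.qs
          comm := fun a ha c hc => h.comm a (hTA ha) c (hTA hc)
          pow := fun a ha => h.pow a (hTA ha)
          cc := fun a ha => h.cc a (hTA ha)
          nt := h.nt
          bo := star_bo h.bo h.comm })
    have hq : ∀ s ∈ A, ∀ t ∈ A, Kl ρ s t := by
      intro s hs t ht
      have : s ∈ star ρ A := by rw [← hTdef, hTeq]; exact hs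
      exact this.2 t ht
    by_cases hp2 : p = 2
    swap
    · exact h.nt (odd_case1 hp2 h.qs hcca (hq a0 ha0 a0 ha0))
    subst hp2
    -- the index of `N_A(L)` is two
    set B := nA L A with hB
    have hBA : B ≤ A := inf_le_left
    have hcoset : ∀ a ∈ A, a ∉ B → a0 * a ∈ B := by
      intro a ha haB
      by_contra hab
      have haN1 : ¬ ∀ l ∈ L, a * l * a⁻¹ ∈ L := fun h1 => haB ((mem_nA h).2 ⟨ha, h1⟩)
      have haN2 : ¬ ∀ l ∈ L, (a0 * a) * l * (a0 * a)⁻¹ ∈ L := fun h1 =>
        hab ((mem_nA h).2 ⟨A.mul_mem ha0 ha, h1⟩)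
      have hfour : Four L a0 a :=
        { ha := h.pow a0 ha0
          hc := h.pow a ha
          hac := h.comm a0 ha0 a ha
          ca := (h.cc a0 ha0).resolve_left haN
          cc := (h.cc a ha).resolve_left haN1
          cac := (h.cc _ (A.mul_mem ha0 ha)).resolve_left haN2 }
      exact h.nt (hfour.trivial_act rfl h.qs (hq a ha a0 ha0) (hq a0 ha0 _ (A.mul_mem ha0 ha)))
    have hcard : Nat.card A ≤ 2 * Nat.card B := by
      have hsub : (A : Set G) ⊆ (B : Set G) ∪ (fun t => a0⁻¹ * t) '' (B : Set G) := by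
        intro t ht
        by_cases htB : t ∈ B
        · exact Or.inl htB
        · exact Or.inr ⟨a0 * t, hcoset t ht htB, by group⟩
      calc Nat.card A = Set.ncard (A : Set G) := (Nat.card_coe_set_eq (A : Set G))
        _ ≤ Set.ncard ((B : Set G) ∪ (fun t => a0⁻¹ * t) '' (B : Set G)) :=
            Set.ncard_le_ncard hsub (Set.toFinite _)
        _ ≤ Set.ncard (B : Set G) + Set.ncard ((fun t => a0⁻¹ * t) '' (B : Set G)) :=
            Set.ncard_union_le _ _
        _ ≤ Set.ncard (B : Set G) + Set.ncard (B : Set G) :=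
            Nat.add_le_add_left (Set.ncard_image_le (Set.toFinite _)) _
        _ = 2 * Nat.card B := by
            rw [← Nat.card_coe_set_eq (B : Set G)]
            change Nat.card B + Nat.card B = _
            ring
    -- offender inequality with `C_A(L)`
    have hoff : Nat.card (Cfg.T0 L B) * Nat.card V ≤ 2 * Nat.card B * Nat.card (fS ρ A) := by
      have h1 := h.bo (Cfg.T0 L B) (inf_le_left.trans hBA)
      have h2 : fS ρ (Cfg.T0 L B) = ⊤ := by
        rw [eq_top_iff]
        intro v _ t ht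
        have ht' := Cfg.mem_T0.1 ht
        exact hker t (hBA ht'.1) ht'.2 v
      rw [h2] at h1
      have h3 : Nat.card (⊤ : Submodule (ZMod 2) V) = Nat.card V :=
        Nat.card_congr Submodule.topEquiv.toEquiv
      rw [h3] at h1
      exact h1.trans (Nat.mul_le_mul_right _ hcard)
    by_cases hBC : ∀ b ∈ B, ∀ l ∈ L, b * l = l * b
    · -- `a0` is a transvection
      have h1 : Cfg.T0 L B = B := by
        apply le_antisymm inf_le_left
        intro t ht
        exact Cfg.mem_T0.2 ⟨ht, hBC t ht⟩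
      rw [h1] at hoff
      have h2 : Nat.card V ≤ 2 * Nat.card (Fx ρ a0) := by
        have h3 : fS ρ A ≤ Fx ρ a0 := fun v hv => hv a0 ha0
        have h4 := card_mono h3
        have h5 : Nat.card B * Nat.card V ≤ Nat.card B * (2 * Nat.card (Fx ρ a0)) := by
          calc Nat.card B * Nat.card V ≤ 2 * Nat.card B * Nat.card (fS ρ A) := hoff
            _ ≤ 2 * Nat.card B * Nat.card (Fx ρ a0) := Nat.mul_le_mul_left _ h4
            _ = _ := by ring
        exact Nat.le_of_mul_le_mul_left h5 Nat.card_pos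
      have h6 : finrank (ZMod 2) (Cm ρ a0) ≤ 1 := by
        have h7 := rank_Fx_add_Cm (ρ := ρ) a0
        have h8 : Nat.card V = 2 ^ finrank (ZMod 2) V := by
          have h := Module.natCard_eq_pow_finrank (K := ZMod 2) (V := V)
          rwa [Nat.card_zmod] at h
        rw [h8, card_eq_two_pow, ← pow_succ'] at h2
        have h9 := (Nat.pow_le_pow_iff_right (by norm_num : 1 < 2)).1 h2
        omega
      exact h.nt (transvection_case h.qs ha0p ((h.cc a0 ha0).resolve_left haN) h6)
    · push Not at hBC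
      obtain ⟨b, hb, l1, hl1, hbl⟩ := hBC
      have hpre : Pre ρ L A B b :=
        { qs := h.qs
          top := htop
          comm := h.comm
          pow := h.pow
          cc := h.cc
          nt := h.nt
          hT := hBA
          hTN := fun t ht => ((mem_nA h).1 ht).2
          kT := fun t ht a ha _ => hq t (hBA ht) a ha
          ker := fun t ht htc => hker t (hBA ht) htc
          hb := hb
          hbC := fun h1 => hbl (h1 l1 hl1) }
      exact hpre.false_of ha0 haN (hoff.trans (Nat.mul_le_mul_left _ (card_mono (fS_anti hBA))))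
  · -- `T` normalizes `L`
    have hAact : ¬ ∀ a ∈ A, ∀ v, ρ a v = v := by
      intro htr
      obtain ⟨x, hx, hxc, n, hn, hxn⟩ := exists_noncentral_coprime h.qs p
      apply h.nt
      have hcc1 : ∀ l ∈ L, Commute l (a0 * x * a0⁻¹) := by
        intro l hl
        have := hcca 1 one_pos hp.out.one_lt l hl x hx
        rw [pow_one] at this
        exact this
      refine triv_of_comm h.qs hx hxc hcc1 ?_
      intro v
      rw [act_mul, act_mul, htr a0 ha0, act_inv_fix (htr a0 ha0 v)]
    obtain ⟨b, hbT, v, hbv⟩ := exists_star_act h.bo h.comm h.isPGroup hAact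
    have hbA : b ∈ A := hTA hbT
    have hbC : ¬ ∀ l ∈ L, b * l = l * b := fun h1 => hbv (hker b hbA h1 v)
    by_cases hp2 : p = 2
    swap
    · exact h.nt (odd_case2 hp2 h.qs ha0p hcca (h.comm b hbA a0 ha0) (hT b hbT) hbC
        (hbT.2 a0 ha0))
    subst hp2
    have hpre : Pre ρ L A T b :=
      { qs := h.qs
        top := htop
        comm := h.comm
        pow := h.pow
        cc := h.cc
        nt := h.nt
        hT := hTA
        hTN := hT
        kT := fun t ht a ha _ => ht.2 a ha
        ker := fun t ht htc => hker t (hTA ht) htc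
        hb := hbT
        hbC := hbC }
    refine hpre.false_of ha0 haN ?_
    have h1 := star_bo h.bo h.comm (Cfg.T0 L T) inf_le_left
    have h2 : fS ρ (Cfg.T0 L T) = ⊤ := by
      rw [eq_top_iff]
      intro v _ t ht
      have ht' := Cfg.mem_T0.1 ht
      exact hker t (hTA ht'.1) ht'.2 v
    rw [h2] at h1
    have h3 : Nat.card (⊤ : Submodule (ZMod 2) V) = Nat.card V :=
      Nat.card_congr Submodule.topEquiv.toEquiv
    rw [h3] at h1
    calc Nat.card (Cfg.T0 L T) * Nat.card V ≤ Nat.card T * Nat.card (fS ρ T) := h1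
      _ ≤ 2 * Nat.card T * Nat.card (fS ρ T) := by
          rw [mul_assoc]; omega

end

theorem stmt_all (p : ℕ) [hp : Fact p.Prime] (n : ℕ) : Stmt.{u, v} p n := by
  induction n with
  | zero =>
    intro G _ _ V _ _ _ ρ L A hn
    have : 0 < Nat.card A := Nat.card_pos
    omega
  | succ n ih =>
    intro G _ _ V _ _ _ ρ L A hn h a ha l hl
    have htop : L.subgroupOf (L ⊔ A) ⊔ A.subgroupOf (L ⊔ A) = ⊤ := by
      rw [← Subgroup.subgroupOf_sup le_sup_left le_sup_right, Subgroup.subgroupOf_self]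
    have hcard : Nat.card (A.subgroupOf (L ⊔ A)) = Nat.card A :=
      Nat.card_congr (Subgroup.subgroupOfEquivOfLe le_sup_right).toEquiv
    have := step_top ih (MonoidHom.comp ρ (L ⊔ A).subtype) (L.subgroupOf (L ⊔ A))
      (A.subgroupOf (L ⊔ A)) (by rw [hcard]; exact hn) h.res htop
      ⟨a, Subgroup.mem_sup_right ha⟩ ha ⟨l, Subgroup.mem_sup_left hl⟩ hl
    exact this

/-- The `P(G,V)`-theorem. -/
theorem main {p : ℕ} [Fact p.Prime] {G : Type u} [Group G] [Finite G] {V : Type v}
    [AddCommGroup V] [Module (ZMod p) V] [Finite V] (ρ : Representation (ZMod p) G V)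
    (L A : Subgroup G) (h : Hyp ρ L A) : ∀ a ∈ A, ∀ l ∈ L, a * l * a⁻¹ ∈ L :=
  stmt_all p _ ρ L A le_rfl h

end Cfsg.Agent.PGV
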